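import Cfsg.Agent.Lib.ToddCox.HCC.D0
import Cfsg.Agent.Lib.ToddCox.HCC.D1
import Cfsg.Agent.Lib.ToddCox.HCC.D2
import Cfsg.Agent.Lib.ToddCox.HCC.D3
import Cfsg.Agent.Lib.ToddCox.HCC.D4
import Cfsg.Agent.Lib.ToddCox.HCC.D5
import Cfsg.Agent.Lib.ToddCox.HCC.D6
import Cfsg.Agent.Lib.ToddCox.HCC.D7
import Cfsg.Agent.Lib.ToddCox.HCC.D8
import Cfsg.Agent.Lib.ToddCox.HCC.D9
import Cfsg.Agent.Lib.ToddCox.HCC.D10
import Cfsg.Agent.Lib.ToddCox.HCC.D11
set_option autoImplicit false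
set_option maxRecDepth 100000
namespace Cfsg.Agent.Lib.ToddCox.HCC

def allW : List ℕ := W0 ++ (W1 ++ (W2 ++ (W3 ++ (W4 ++ (W5 ++ (W6 ++ (W7 ++ (W8 ++ (W9 ++ (W10 ++ (W11 ++ (W12 ++ (W13 ++ (W14 ++ (W15 ++ (W16 ++ (W17 ++ (W18 ++ (W19 ++ (W20 ++ (W21 ++ (W22 ++ (W23 ++ (W24 ++ (W25 ++ (W26 ++ (W27 ++ (W28 ++ (W29 ++ (W30 ++ (W31 ++ (W32 ++ (W33 ++ (W34 ++ (W35 ++ (W36 ++ (W37 ++ (W38 ++ (W39 ++ (W40 ++ (W41 ++ (W42 ++ (W43 ++ (W44 ++ (W45)))))))))))))))))))))))))))))))))))))))))))))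

theorem allW_good : Good 0 17938276026272 allW := by
  exact (good_of_chk _ _ c0).app ((good_of_chk _ _ c1).app ((good_of_chk _ _ c2).app ((good_of_chk _ _ c3).app ((good_of_chk _ _ c4).app ((good_of_chk _ _ c5).app ((good_of_chk _ _ c6).app ((good_of_chk _ _ c7).app ((good_of_chk _ _ c8).app ((good_of_chk _ _ c9).app ((good_of_chk _ _ c10).app ((good_of_chk _ _ c11).app ((good_of_chk _ _ c12).app ((good_of_chk _ _ c13).app ((good_of_chk _ _ c14).app ((good_of_chk _ _ c15).app ((good_of_chk _ _ c16).app ((good_of_chk _ _ c17).app ((good_of_chk _ _ c18).app ((good_of_chk _ _ c19).app ((good_of_chk _ _ c20).app ((good_of_chk _ _ c21).app ((good_of_chk _ _ c22).app ((good_of_chk _ _ c23).app ((good_of_chk _ _ c24).app ((good_of_chk _ _ c25).app ((good_of_chk _ _ c26).app ((good_of_chk _ _ c27).app ((good_of_chk _ _ c28).app ((good_of_chk _ _ c29).app ((good_of_chk _ _ c30).app ((good_of_chk _ _ c31).app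 ((good_of_chk _ _ c32).app ((good_of_chk _ _ c33).app ((good_of_chk _ _ c34).app ((good_of_chk _ _ c35).app ((good_of_chk _ _ c36).app ((good_of_chk _ _ c37).app ((good_of_chk _ _ c38).app ((good_of_chk _ _ c39).app ((good_of_chk _ _ c40).app ((good_of_chk _ _ c41).app ((good_of_chk _ _ c42).app ((good_of_chk _ _ c43).app ((good_of_chk _ _ c44).app (good_of_chk _ _ c45)))))))))))))))))))))))))))))))))))))))))))))

theorem allW_length : allW.length = 187425 := by decide +kernel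

end Cfsg.Agent.Lib.ToddCox.HCC
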