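/-
Conjugates of the involution d of the Held group, sorted by their values at four points (helper16).
-/
import Cfsg.Agent.Lib.ToddCox.He2058.Main
set_option autoImplicit false
set_option maxRecDepth 100000
namespace Cfsg.Agent.Lib.ToddCox.HCC

/-- A word written in base eight, each digit one more than a letter. -/
noncomputable def wdec (n : ℕ) : ℕ → List ℕ :=
  Nat.rec (motive := fun _ => ℕ → List ℕ) (fun _ => [])
    (fun _ ih c => bif Nat.beq c 0 then [] else Nat.sub (Nat.mod c 8) 1 :: ih (Nat.div c 8)) n

/-- The conjugate word. -/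
noncomputable def cw (c : ℕ) : List ℕ := wdec 21 c ++ 3 :: (wdec 21 c).reverse

/-- The values at four points of a word. -/
noncomputable def fpW (W : List ℕ) : ℕ :=
  Nat.add (tabW Cfsg.Agent.Lib.ToddCox.He2058.tab W 533) (Nat.mul 2058 (Nat.add (tabW Cfsg.Agent.Lib.ToddCox.He2058.tab W 1773)
    (Nat.mul 2058 (Nat.add (tabW Cfsg.Agent.Lib.ToddCox.He2058.tab W 1128) (Nat.mul 2058 (tabW Cfsg.Agent.Lib.ToddCox.He2058.tab W 841))))))

noncomputable def fp (c : ℕ) : ℕ := fpW (cw c)

/-- The values increase along the list, and stay above `a` and at most `b`. -/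
noncomputable def chk (b : ℕ) (l : List ℕ) : ℕ → Bool :=
  List.rec (motive := fun _ => ℕ → Bool) (fun a => Nat.ble a b)
    (fun c _ ih a => bif Nat.blt a (fp c) then ih (fp c) else false) l

/-- What the check gives. -/
def Good (a b : ℕ) (l : List ℕ) : Prop :=
  (l.map fp).Pairwise (· < ·) ∧ (∀ x ∈ l.map fp, a < x ∧ x ≤ b) ∧ a ≤ b

theorem good_of_chk {b : ℕ} (l : List ℕ) : ∀ a, chk b l a = true → Good a b l := by
  induction l with
  | nil =>
    intro a h
    exact ⟨List.Pairwise.nil, by simp, Nat.le_of_ble_eq_true h⟩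
  | cons c l ih =>
    intro a h
    have h1 : (bif Nat.blt a (fp c) then chk b l (fp c) else false) = true := h
    cases h2 : Nat.blt a (fp c) with
    | false => rw [h2] at h1; simp at h1
    | true =>
      rw [h2] at h1
      have h3 : a < fp c := by
        have := Nat.le_of_ble_eq_true h2
        exact this
      obtain ⟨p1, p2, p3⟩ := ih (fp c) (by simpa using h1)
      refine ⟨?_, ?_, by omega⟩
      · rw [List.map_cons, List.pairwise_cons]
        exact ⟨fun x hx => (p2 x hx).1, p1⟩
      · intro x hx
        rw [List.map_cons, List.mem_cons] at hx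
        rcases hx with rfl | hx
        · exact ⟨h3, p3⟩
        · have := p2 x hx
          omega

theorem Good.app {a b c : ℕ} {l m : List ℕ} (h1 : Good a b l) (h2 : Good b c m) : Good a c (l ++ m) := by
  obtain ⟨p1, p2, p3⟩ := h1
  obtain ⟨q1, q2, q3⟩ := h2
  refine ⟨?_, ?_, by omega⟩
  · rw [List.map_append, List.pairwise_append]
    refine ⟨p1, q1, fun x hx y hy => ?_⟩
    have := (p2 x hx).2
    have := (q2 y hy).1
    omega
  · intro x hx
    rw [List.map_append, List.mem_append] at hx
    rcases hx with hx | hx
    · have := p2 x hx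
      omega
    · have := q2 x hx
      omega

theorem wdec_lt (n : ℕ) : ∀ c, ∀ a ∈ wdec n c, a < 7 := by
  induction n with
  | zero => intro c a ha; simp [wdec] at ha
  | succ n ih =>
    intro c a ha
    have h1 : wdec (n + 1) c = bif Nat.beq c 0 then [] else Nat.sub (Nat.mod c 8) 1 :: wdec n (Nat.div c 8) := rfl
    rw [h1] at ha
    cases h2 : Nat.beq c 0 with
    | true => rw [h2] at ha; simp at ha
    | false =>
      rw [h2] at ha
      simp only [cond_false, List.mem_cons] at ha
      rcases ha with rfl | ha
      · have : c % 8 < 8 := Nat.mod_lt _ (by norm_num)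
        show c % 8 - 1 < 7
        omega
      · exact ih _ a ha

end Cfsg.Agent.Lib.ToddCox.HCC
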